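import Cfsg.Agent.H962.PP.Five
import Cfsg.Agent.H162.GaussSL

/-!
# `P₅(4)`, `P₅(9)`

* `five_sl` : every nonscalar `A ∈ SL₅(q)`, `q = 4, 9`, is `X Y` with irreducible characteristic polynomials;
* `p_five_four`, `p_five_nine` : every `L U` in `SL₅(q)` is `X Y` with irreducible characteristic polynomials.
-/

set_option autoImplicit false

namespace Cfsg.Agent.H962.PP

open Polynomial Matrix Cfsg.Agent.H162.GaussSL

universe u v

variable {F : Type u} [Field F]

theorem charpoly_smul_irr {V : Type v} [AddCommGroup V] [Module F V] [FiniteDimensional F V]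
    (T : Module.End F V) {α : F} (hα : α ≠ 0) (h : Irreducible (LinearMap.charpoly T)) :
    Irreducible (LinearMap.charpoly (α • T)) := by
  have hd : 0 < Module.finrank F V := by
    rw [← LinearMap.charpoly_natDegree T]; exact h.natDegree_pos
  have : Nontrivial V := Module.finrank_pos_iff.1 hd
  obtain ⟨v, hv⟩ := exists_ne (0 : V)
  have h2 : aeval (α • T) (C α⁻¹ * X : F[X]) = T := by
    rw [map_mul, aeval_C, aeval_X, Algebra.algebraMap_eq_smul_one, smul_one_mul, smul_smul, inv_mul_cancel₀ hα, one_smul]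
  have h3 : aeval (α • T) (scl α (LinearMap.charpoly T)) v = 0 := by
    rw [scl, map_mul, aeval_comp, h2, LinearMap.aeval_self_charpoly, mul_zero]; rfl
  rw [charpoly_of_kill (α • T) (scl_monic hα (LinearMap.charpoly_monic T)) (scl_irr hα h)
    ((scl_natDegree hα _).trans (LinearMap.charpoly_natDegree T)) hv h3]
  exact scl_irr hα h

theorem charpoly_toMat {n : ℕ} (T : Module.End F (Fin n → F)) : (LinearMap.toMatrix' T).charpoly = LinearMap.charpoly T := by
  rw [← LinearMap.toMatrix_eq_toMatrix', LinearMap.charpoly_toMatrix]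

theorem irr_inv' {n : ℕ} {A : Matrix (Fin n) (Fin n) F} (hA : A.det ≠ 0) (h : Irreducible A.charpoly) :
    Irreducible A⁻¹.charpoly := by
  have hu : IsUnit A := (Matrix.isUnit_iff_isUnit_det A).2 (isUnit_iff_ne_zero.2 hA)
  rw [Matrix.charpoly_inv A hu, ← Matrix.reverse_charpoly]
  refine (irreducible_isUnit_mul ?_).2 (irr_reverse h ?_)
  · refine ((isUnit_one.neg).pow _).mul (isUnit_C.2 ?_)
    rw [Ring.inverse_eq_inv']
    exact isUnit_iff_ne_zero.2 (inv_ne_zero hA)
  · intro h0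
    rw [Matrix.det_eq_sign_charpoly_coeff, h0, mul_zero] at hA
    exact hA rfl

/-- **`SL₅`** -/
theorem five_sl [Finite F] (h4 : 4 ≤ Nat.card F) (hP : Pair F) (hP' : Pair' F) {t : ℕ}
    (ht : ∀ x : F, x ≠ 0 → (x ^ t) ^ 5 * x = 1) (A : SpecialLinearGroup (Fin 5) F)
    (hns : ∀ c : F, (A : Matrix (Fin 5) (Fin 5) F) ≠ c • (1 : Matrix (Fin 5) (Fin 5) F)) :
    ∃ X Y : SpecialLinearGroup (Fin 5) F, A = X * Y ∧ Irreducible (X : Matrix (Fin 5) (Fin 5) F).charpoly ∧
      Irreducible (Y : Matrix (Fin 5) (Fin 5) F).charpoly := by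
  obtain ⟨T, hT⟩ : ∃ T : Module.End F (Fin 5 → F), T = Matrix.toLin' A.1 := ⟨_, rfl⟩
  have hTA : LinearMap.toMatrix' T = A.1 := by rw [hT, LinearMap.toMatrix'_toLin']
  have hdT : LinearMap.det T = 1 := by rw [hT, LinearMap.det_toLin', A.2]
  have hTs : ∀ c : F, T ≠ c • 1 := by
    intro c h
    apply hns c
    rw [← hTA, h, map_smul]
    congr 1
    exact LinearMap.toMatrix'_one
  rcases good_or h4 hP hP' (V := Fin 5 → F) (by rw [Module.finrank_fin_fun]) T hdT hTs with
    ⟨L, hL, X, Y, hYX, hX, hY⟩ | ⟨Z, hX, hZ⟩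
  · have hdd : LinearMap.det Y * LinearMap.det X = L ^ 5 := by
      rw [← map_mul, hYX, LinearMap.det_smul, hdT, Module.finrank_fin_fun, mul_one]
    have hdX : LinearMap.det X ≠ 0 := by
      intro h
      rw [h, mul_zero] at hdd
      exact pow_ne_zero _ hL hdd.symm
    obtain ⟨α, hα⟩ : ∃ α, α = (LinearMap.det X) ^ t := ⟨_, rfl⟩
    have hα0 : α ≠ 0 := by rw [hα]; exact pow_ne_zero _ hdX
    have hα5 : α ^ 5 * LinearMap.det X = 1 := by rw [hα]; exact ht _ hdX
    have hLα : L * α ≠ 0 := mul_ne_zero hL hα0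
    have h1 : (LinearMap.toMatrix' (α • X)).det = 1 := by
      rw [LinearMap.det_toMatrix', LinearMap.det_smul, Module.finrank_fin_fun, hα5]
    have h2 : (LinearMap.toMatrix' ((L * α)⁻¹ • Y)).det = 1 := by
      rw [LinearMap.det_toMatrix', LinearMap.det_smul, Module.finrank_fin_fun]
      have h3 : LinearMap.det Y = L ^ 5 * α ^ 5 := by
        rw [← hdd, mul_assoc, mul_comm (LinearMap.det X), hα5, mul_one]
      rw [h3, ← mul_pow, ← mul_pow, inv_mul_cancel₀ hLα, one_pow]
    refine ⟨⟨_, h2⟩, ⟨_, h1⟩, ?_, ?_, ?_⟩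
    · apply Subtype.ext
      change A.1 = LinearMap.toMatrix' ((L * α)⁻¹ • Y) * LinearMap.toMatrix' (α • X)
      rw [← LinearMap.toMatrix'_mul, ← hTA]
      congr 1
      rw [smul_mul_smul_comm, hYX, smul_smul, show (L * α)⁻¹ * α * L = 1 by field_simp, one_smul]
    · change Irreducible (LinearMap.toMatrix' ((L * α)⁻¹ • Y)).charpoly
      rw [charpoly_toMat]
      exact charpoly_smul_irr Y (inv_ne_zero hLα) hY
    · change Irreducible (LinearMap.toMatrix' (α • X)).charpoly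
      rw [charpoly_toMat]
      exact charpoly_smul_irr X hα0 hX
  · have hdd : LinearMap.det (T * Z) = LinearMap.det Z := by
      rw [map_mul, hdT, one_mul]
    have hdZ : LinearMap.det Z ≠ 0 := by
      intro h0
      rw [LinearMap.det_eq_sign_charpoly_coeff] at h0
      have h1 : (LinearMap.charpoly Z).coeff 0 = 0 :=
        (mul_eq_zero.1 h0).resolve_left (pow_ne_zero _ (by simp))
      have h2 : (Polynomial.X : F[X]) ∣ LinearMap.charpoly Z := X_dvd_iff.2 h1
      have h3 := (hZ.dvd_iff.1 h2).resolve_left not_isUnit_X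
      have h4 := natDegree_eq_of_degree_eq (degree_eq_degree_of_associated h3)
      rw [natDegree_X, LinearMap.charpoly_natDegree, Module.finrank_fin_fun] at h4
      omega
    obtain ⟨α, hα⟩ : ∃ α, α = (LinearMap.det Z) ^ t := ⟨_, rfl⟩
    have hα0 : α ≠ 0 := by rw [hα]; exact pow_ne_zero _ hdZ
    have hα5 : α ^ 5 * LinearMap.det Z = 1 := by rw [hα]; exact ht _ hdZ
    have h1 : (LinearMap.toMatrix' (α • (T * Z))).det = 1 := by
      rw [LinearMap.det_toMatrix', LinearMap.det_smul, Module.finrank_fin_fun, hdd, hα5]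
    have h2 : (LinearMap.toMatrix' (α • Z)).det = 1 := by
      rw [LinearMap.det_toMatrix', LinearMap.det_smul, Module.finrank_fin_fun, hα5]
    have h3 : (LinearMap.toMatrix' (α • Z))⁻¹.det = 1 := by
      rw [Matrix.det_nonsing_inv, h2]; simp
    refine ⟨⟨_, h1⟩, ⟨_, h3⟩, ?_, ?_, ?_⟩
    · apply Subtype.ext
      change A.1 = LinearMap.toMatrix' (α • (T * Z)) * (LinearMap.toMatrix' (α • Z))⁻¹
      rw [← mul_smul_comm, LinearMap.toMatrix'_mul, Matrix.mul_assoc, Matrix.mul_nonsing_inv _ (by rw [h2]; exact isUnit_one),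
        Matrix.mul_one, hTA]
    · change Irreducible (LinearMap.toMatrix' (α • (T * Z))).charpoly
      rw [charpoly_toMat]
      exact charpoly_smul_irr _ hα0 hX
    · change Irreducible (LinearMap.toMatrix' (α • Z))⁻¹.charpoly
      refine irr_inv' (by rw [h2]; exact one_ne_zero) ?_
      rw [charpoly_toMat]
      exact charpoly_smul_irr _ hα0 hZ

/-- an element with irreducible characteristic polynomial -/
theorem exists_irr_sl (hP' : Pair' F) {t : ℕ} (ht : ∀ x : F, x ≠ 0 → (x ^ t) ^ 5 * x = 1) :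
    ∃ X : SpecialLinearGroup (Fin 5) F, Irreducible (X : Matrix (Fin 5) (Fin 5) F).charpoly := by
  obtain ⟨f, -, hf, hfi, hfd, -⟩ := hP'
  obtain ⟨M, hM⟩ : ∃ M : Matrix (Fin 5) (Fin 5) F, M.charpoly = f := by
    have h1 := H953.charpoly_comp hf
    refine ⟨(H953.comp f).submatrix (finCongr hfd.symm) (finCongr hfd.symm), ?_⟩
    exact (Matrix.charpoly_reindex (finCongr hfd) (H953.comp f)).trans h1
  have hM0 : M.det ≠ 0 := by
    rw [Matrix.det_eq_sign_charpoly_coeff, hM]
    refine mul_ne_zero (pow_ne_zero _ (by simp)) ?_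
    intro h0
    have h2 : (Polynomial.X : F[X]) ∣ f := X_dvd_iff.2 h0
    have h3 := (hfi.dvd_iff.1 h2).resolve_left not_isUnit_X
    have h4 := natDegree_eq_of_degree_eq (degree_eq_degree_of_associated h3)
    rw [natDegree_X] at h4
    omega
  obtain ⟨Z, hZ⟩ : ∃ Z : Module.End F (Fin 5 → F), Z = Matrix.toLin' M := ⟨_, rfl⟩
  have hZM : LinearMap.toMatrix' Z = M := by rw [hZ, LinearMap.toMatrix'_toLin']
  have hZi : Irreducible (LinearMap.charpoly Z) := by rw [← charpoly_toMat, hZM, hM]; exact hfi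
  have hdZ : LinearMap.det Z = M.det := by rw [hZ, LinearMap.det_toLin']
  obtain ⟨α, hα⟩ : ∃ α, α = M.det ^ t := ⟨_, rfl⟩
  have hα0 : α ≠ 0 := by rw [hα]; exact pow_ne_zero _ hM0
  have h2 : (LinearMap.toMatrix' (α • Z)).det = 1 := by
    rw [LinearMap.det_toMatrix', LinearMap.det_smul, Module.finrank_fin_fun, hdZ, hα]
    exact ht _ hM0
  refine ⟨⟨_, h2⟩, ?_⟩
  change Irreducible (LinearMap.toMatrix' (α • Z)).charpoly
  rw [charpoly_toMat]
  exact charpoly_smul_irr _ hα0 hZi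

/-- **`P₅`** -/
theorem p_five [Finite F] (h4 : 4 ≤ Nat.card F) (hP : Pair F) (hP' : Pair' F) {t : ℕ}
    (ht : ∀ x : F, x ≠ 0 → (x ^ t) ^ 5 * x = 1) {L : SpecialLinearGroup (Fin 5) F} (hL : L ∈ LT 5 F)
    {U : SpecialLinearGroup (Fin 5) F} (hU : U ∈ UT 5 F) :
    ∃ X Y : SpecialLinearGroup (Fin 5) F, L * U = X * Y ∧ Irreducible (X : Matrix (Fin 5) (Fin 5) F).charpoly ∧
      Irreducible (Y : Matrix (Fin 5) (Fin 5) F).charpoly := by
  by_cases hs : ∃ c : F, ((L * U : SpecialLinearGroup (Fin 5) F) : Matrix (Fin 5) (Fin 5) F) = c • 1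
  · obtain ⟨c, hc⟩ := hs
    rw [mem_LT] at hL
    rw [mem_UT] at hU
    have h00 : (L.1 * U.1) 0 0 = 1 := by
      rw [Matrix.mul_apply, Finset.sum_eq_single 0, hL.2, hU.2, one_mul]
      · intro k _ hk
        rw [hL.1 0 k (Fin.pos_of_ne_zero hk), zero_mul]
      · intro h; exact absurd (Finset.mem_univ _) h
    have hc1 : c = 1 := by
      have h1 := congrFun (congrFun hc 0) 0
      change (L.1 * U.1) 0 0 = _ at h1
      rw [h00] at h1
      simpa using h1.symm
    have h1 : L * U = 1 := by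
      apply Subtype.ext
      change ((L * U : SpecialLinearGroup (Fin 5) F) : Matrix (Fin 5) (Fin 5) F) = 1
      rw [hc, hc1, one_smul]
    obtain ⟨X, hX⟩ := exists_irr_sl hP' ht
    refine ⟨X, X⁻¹, by rw [h1, mul_inv_cancel], hX, ?_⟩
    have h2 : ((X⁻¹ : SpecialLinearGroup (Fin 5) F) : Matrix (Fin 5) (Fin 5) F) = X.1⁻¹ := by
      change X.1.adjugate = _
      rw [Matrix.inv_def, X.2]
      simp
    rw [h2]
    exact irr_inv' (by rw [X.2]; exact one_ne_zero) hX
  · push Not at hs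
    exact five_sl h4 hP hP' ht (L * U) hs

theorem root_four (h : Nat.card F = 4) (x : F) (hx : x ≠ 0) : (x ^ 1) ^ 5 * x = 1 := by
  rw [show (x ^ 1) ^ 5 * x = (x ^ 3) ^ 2 by ring, pow_card (n := 2) h hx, one_pow]

theorem root_nine (h : Nat.card F = 9) (x : F) (hx : x ≠ 0) : (x ^ 3) ^ 5 * x = 1 := by
  rw [show (x ^ 3) ^ 5 * x = (x ^ 8) ^ 2 by ring, pow_card (n := 7) h hx, one_pow]

/-- **`P₅(4)`** -/
theorem p_five_four {K : Type u} [Field K] [Finite K] (hK : Nat.card K = 4) : ∀ L ∈ LT 5 K, ∀ U ∈ UT 5 K,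
    ∃ X Y : SpecialLinearGroup (Fin 5) K, L * U = X * Y ∧ Irreducible (X : Matrix (Fin 5) (Fin 5) K).charpoly ∧
      Irreducible (Y : Matrix (Fin 5) (Fin 5) K).charpoly := fun _ hL _ hU =>
  p_five (by omega) (pair_four hK) (pair_four' hK) (root_four hK) hL hU

/-- **`P₅(9)`** -/
theorem p_five_nine {K : Type u} [Field K] [Finite K] (hK : Nat.card K = 9) : ∀ L ∈ LT 5 K, ∀ U ∈ UT 5 K,
    ∃ X Y : SpecialLinearGroup (Fin 5) K, L * U = X * Y ∧ Irreducible (X : Matrix (Fin 5) (Fin 5) K).charpoly ∧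
      Irreducible (Y : Matrix (Fin 5) (Fin 5) K).charpoly := fun _ hL _ hU =>
  p_five (by omega) (pair_nine hK) (pair_nine' hK) (root_nine hK) hL hU

/-- nonscalar elements of `SL₅(4)` -/
theorem five_four {K : Type u} [Field K] [Finite K] (hK : Nat.card K = 4) (A : SpecialLinearGroup (Fin 5) K)
    (hns : ∀ c : K, (A : Matrix (Fin 5) (Fin 5) K) ≠ c • (1 : Matrix (Fin 5) (Fin 5) K)) :
    ∃ X Y : SpecialLinearGroup (Fin 5) K, A = X * Y ∧ Irreducible (X : Matrix (Fin 5) (Fin 5) K).charpoly ∧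
      Irreducible (Y : Matrix (Fin 5) (Fin 5) K).charpoly :=
  five_sl (by omega) (pair_four hK) (pair_four' hK) (root_four hK) A hns

/-- nonscalar elements of `SL₅(9)` -/
theorem five_nine {K : Type u} [Field K] [Finite K] (hK : Nat.card K = 9) (A : SpecialLinearGroup (Fin 5) K)
    (hns : ∀ c : K, (A : Matrix (Fin 5) (Fin 5) K) ≠ c • (1 : Matrix (Fin 5) (Fin 5) K)) :
    ∃ X Y : SpecialLinearGroup (Fin 5) K, A = X * Y ∧ Irreducible (X : Matrix (Fin 5) (Fin 5) K).charpoly ∧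
      Irreducible (Y : Matrix (Fin 5) (Fin 5) K).charpoly :=
  five_sl (by omega) (pair_nine hK) (pair_nine' hK) (root_nine hK) A hns

end Cfsg.Agent.H962.PP
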