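import Cfsg.Agent.H962.PP.Torus
import Cfsg.Agent.H962.PP.PwPsl
import Cfsg.Agent.H130.War.Base

/-!
# The words `x ^ k * y ^ l` on `PSL_n(F)` (S2453)

`kl_psl` : the whole row `PSL_n(q)`, `n ≥ 2`.
-/

set_option autoImplicit false

namespace Cfsg.Agent.H962.PP

open Module Matrix Polynomial
open Cfsg.Agent.H130.War
open Cfsg.Agent.H134.War

section field
variable {F : Type*} [Field F]

theorem conj_pow_mat {n : ℕ} {P : Matrix (Fin n) (Fin n) F} (hP : IsUnit P.det)
    (x : Matrix (Fin n) (Fin n) F) (i : ℕ) : (P * x * P⁻¹) ^ i = P * x ^ i * P⁻¹ := by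
  have hPP : P⁻¹ * P = 1 := Matrix.nonsing_inv_mul _ hP
  have hPP' : P * P⁻¹ = 1 := Matrix.mul_nonsing_inv _ hP
  induction i with
  | zero => rw [pow_zero, pow_zero, mul_one, hPP']
  | succ i ih =>
    rw [pow_succ, ih, pow_succ]
    calc P * x ^ i * P⁻¹ * (P * x * P⁻¹) = P * x ^ i * (P⁻¹ * P) * x * P⁻¹ := by
          simp only [mul_assoc]
      _ = _ := by rw [hPP, mul_one, mul_assoc P]

theorem conj_det_mat {n : ℕ} {P : Matrix (Fin n) (Fin n) F} (hP : IsUnit P.det)
    (x : Matrix (Fin n) (Fin n) F) : (P * x * P⁻¹).det = x.det := by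
  have hPP : P⁻¹.det * P.det = 1 := by rw [← det_mul, Matrix.nonsing_inv_mul _ hP, det_one]
  rw [det_mul, det_mul, mul_comm P.det, mul_assoc, mul_comm P.det, hPP, mul_one]

/-- **`SS p e` from two models** -/
theorem ss_psl_of {k e p N M : ℕ} {X₁ : Matrix (Fin (k + 2)) (Fin (k + 2)) F} (hX1 : X₁.det = 1)
    (hXN : X₁ ^ N = 1) (hXc : Cyc (X₁ ^ e)) {c₁ : F} {B₁ : Matrix (Fin (k + 1)) (Fin (k + 1)) F}
    (hB1 : c₁ * B₁.det = 1) (hBM : (blk c₁ B₁) ^ M = 1) (hBc : Cyc (B₁ ^ e))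
    (hBe : (B₁ ^ e).charpoly.eval (c₁ ^ e) ≠ 0) (hN : N.Coprime p) (hM : M.Coprime p) :
    SS p e (ProjectiveSpecialLinearGroup (Fin (k + 2)) F) := by
  intro g
  obtain ⟨A, rfl⟩ := QuotientGroup.mk'_surjective
    (Subgroup.center (SpecialLinearGroup (Fin (k + 2)) F)) g
  by_cases hA : A ∈ Subgroup.center (SpecialLinearGroup (Fin (k + 2)) F)
  · refine ⟨1, 1, ?_, by rw [orderOf_one]; exact Nat.coprime_one_left p,
      by rw [orderOf_one]; exact Nat.coprime_one_left p⟩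
    rw [one_pow, mul_one]
    exact (QuotientGroup.eq_one_iff A).mpr hA
  have hsc : ∀ c : F, (A : Matrix (Fin (k + 2)) (Fin (k + 2)) F) ≠ scalar (Fin (k + 2)) c := by
    intro c hc
    apply hA
    rw [Matrix.SpecialLinearGroup.mem_center_iff]
    refine ⟨c, ?_, hc.symm⟩
    have h1 := A.det_coe
    rw [hc, Matrix.scalar_apply, Matrix.det_diagonal, Finset.prod_const, Finset.card_univ] at h1
    exact h1
  have hc1 : c₁ ≠ 0 := left_ne_zero_of_mul (by rw [hB1]; exact one_ne_zero)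
  have hBd : B₁.det ≠ 0 := right_ne_zero_of_mul (by rw [hB1]; exact one_ne_zero)
  obtain ⟨P, Q, hP, hQ, hPQ⟩ := exists_mul_conj (A : Matrix (Fin (k + 2)) (Fin (k + 2)) F) hsc
    (X₁ ^ e) hXc (by rw [det_pow, hX1, one_pow]; exact one_ne_zero) (B₁ ^ e) hBc
    (by rw [det_pow]; exact pow_ne_zero _ hBd) (c₁ ^ e) (pow_ne_zero _ hc1) hBe
    (by rw [A.det_coe, det_pow, hX1, one_pow, one_mul, det_pow, ← mul_pow, hB1, one_pow])
  have hQu : IsUnit Q.det := by rw [hQ]; exact isUnit_one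
  rw [← blk_pow, ← conj_pow_mat hP, ← conj_pow_mat hQu] at hPQ
  obtain ⟨x, hx⟩ : ∃ x : SpecialLinearGroup (Fin (k + 2)) F, x.val = P * X₁ * P⁻¹ :=
    ⟨⟨P * X₁ * P⁻¹, by rw [conj_det_mat hP, hX1]⟩, rfl⟩
  obtain ⟨y, hy⟩ : ∃ y : SpecialLinearGroup (Fin (k + 2)) F, y.val = Q * blk c₁ B₁ * Q⁻¹ :=
    ⟨⟨Q * blk c₁ B₁ * Q⁻¹, by rw [conj_det_mat hQu, blk_det, hB1]⟩, rfl⟩
  rw [← hx, ← hy] at hPQ
  have hAxy : A = x ^ e * y ^ e := Subtype.ext (hPQ.trans (by
    refine Eq.trans ?_ (Matrix.SpecialLinearGroup.coe_mul (x ^ e) (y ^ e)).symm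
    exact congrArg₂ (· * ·) (Matrix.SpecialLinearGroup.coe_pow x e).symm
      (Matrix.SpecialLinearGroup.coe_pow y e).symm))
  have hxN : x ^ N = 1 := Subtype.ext ((Matrix.SpecialLinearGroup.coe_pow x N).trans (by
    rw [hx, conj_pow_mat hP, hXN, mul_one, Matrix.mul_nonsing_inv _ hP]
    exact Matrix.SpecialLinearGroup.coe_one.symm))
  have hyM : y ^ M = 1 := Subtype.ext ((Matrix.SpecialLinearGroup.coe_pow y M).trans (by
    rw [hy, conj_pow_mat hQu, hBM, mul_one, Matrix.mul_nonsing_inv _ hQu]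
    exact Matrix.SpecialLinearGroup.coe_one.symm))
  refine ⟨QuotientGroup.mk' _ x, QuotientGroup.mk' _ y, ?_, ?_, ?_⟩
  · rw [hAxy, map_mul, map_pow, map_pow]
  · exact Nat.Coprime.of_dvd_left (orderOf_dvd_of_pow_eq_one (by rw [← map_pow, hxN, map_one])) hN
  · exact Nat.Coprime.of_dvd_left (orderOf_dvd_of_pow_eq_one (by rw [← map_pow, hyM, map_one])) hM

variable [Finite F]

theorem coprime_pow_sub_one {r d : ℕ} [hr : Fact r.Prime] [CharP F r] (hd : d ≠ 0) :
    (Nat.card F ^ d - 1).Coprime r := by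
  have : Fintype F := Fintype.ofFinite F
  obtain ⟨e, he⟩ := FiniteField.card F r
  have hq2 : 2 ≤ Nat.card F := Finite.one_lt_card
  have hpos : 0 < Nat.card F ^ d := by positivity
  have h1 : r ∣ Nat.card F ^ d := by
    rw [Nat.card_eq_fintype_card, he.2]
    exact dvd_pow (dvd_pow_self _ (PNat.ne_zero e)) hd
  rw [Nat.coprime_comm, hr.out.coprime_iff_not_dvd]
  intro h2
  have h3 : r ∣ 1 := by
    have h4 := (Nat.dvd_add_right h2).mp (show r ∣ (Nat.card F ^ d - 1) + 1 by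
      rw [Nat.sub_add_cancel hpos]; exact h1)
    exact h4
  exact hr.out.one_lt.ne' (Nat.dvd_one.mp h3)

/-- large `q` -/
theorem ss_psl_big {k e r : ℕ} [hr : Fact r.Prime] [CharP F r] (he0 : 0 < e)
    (he : 2 * e ≤ Nat.card F) (he1 : k = 0 → 2 * e + 2 ≤ Nat.card F) :
    SS r e (ProjectiveSpecialLinearGroup (Fin (k + 2)) F) := by
  have hq2 : 2 ≤ Nat.card F := Finite.one_lt_card
  obtain ⟨X₁, hX1, hXN, hXc, -⟩ := exists_tor (F := F) (d := k + 2) (e := e) (by omega) he0 he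
  rcases Nat.eq_zero_or_pos k with rfl | hk
  · -- `n = 2`
    obtain ⟨b, hb⟩ := IsCyclic.exists_generator (α := Fˣ)
    have hbo : orderOf b = Nat.card F - 1 := by
      rw [orderOf_eq_card_of_forall_mem_zpowers hb, Nat.card_units]
    have hb2 : (b : F) ^ (2 * e) ≠ 1 := by
      intro h
      have h1 : b ^ (2 * e) = 1 := Units.ext (by rw [Units.val_pow_eq_pow_val, h, Units.val_one])
      have h2 := Nat.le_of_dvd (by omega) (orderOf_dvd_of_pow_eq_one h1)
      rw [hbo] at h2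
      have := he1 rfl
      omega
    have hbN : (b : F) ^ (Nat.card F - 1) = 1 := by
      rw [← Units.val_pow_eq_pow_val, ← hbo, pow_orderOf_eq_one, Units.val_one]
    refine ss_psl_of (k := 0) (M := Nat.card F ^ 1 - 1) hX1 hXN hXc (c₁ := ((b : F))⁻¹)
      (B₁ := scalar (Fin 1) (b : F)) ?_ ?_ ?_ ?_ (coprime_pow_sub_one (by omega))
      (coprime_pow_sub_one one_ne_zero)
    · simp
    · rw [blk_pow, ← map_pow, pow_one, inv_pow, hbN, inv_one, map_one, blk_one]
    · refine ⟨fun _ => 1, ?_⟩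
      have : Unique (Fin (0 + 1)) := inferInstanceAs (Unique (Fin 1))
      rw [linearIndependent_unique_iff]
      intro h
      have := congrFun h 0
      simp at this
    · rw [← map_pow, Matrix.eval_charpoly, ← map_sub]
      simp only [Matrix.scalar_apply, Matrix.det_diagonal, Finset.prod_const]
      intro h
      replace h := (pow_eq_zero_iff (by simp)).mp h
      apply hb2
      have hb0 : (b : F) ^ e ≠ 0 := pow_ne_zero _ b.ne_zero
      rw [sub_eq_zero, inv_pow] at h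
      rw [two_mul, pow_add]
      nth_rewrite 1 [← h]
      exact inv_mul_cancel₀ hb0
  · obtain ⟨B₁, hB1, hBN, hBc, hBe⟩ := exists_tor (F := F) (d := k + 1) (e := e) (by omega) he0 he
    refine ss_psl_of (M := Nat.card F ^ (k + 1) - 1) hX1 hXN hXc (c₁ := 1) (B₁ := B₁) (by rw [hB1, mul_one])
      ?_ hBc (by rw [one_pow]; exact hBe) (coprime_pow_sub_one (by omega))
      (coprime_pow_sub_one (by omega))
    rw [blk_pow, one_pow, hBN, blk_one]

theorem card_psl_le (n : ℕ) :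
    Nat.card (ProjectiveSpecialLinearGroup (Fin n) F) ≤ Nat.card F ^ (n ^ 2) := by
  have h1 : Nat.card (ProjectiveSpecialLinearGroup (Fin n) F)
      ≤ Nat.card (SpecialLinearGroup (Fin n) F) :=
    Nat.card_le_card_of_surjective _ (QuotientGroup.mk'_surjective _)
  have h2 : Nat.card (SpecialLinearGroup (Fin n) F) ≤ Nat.card (Matrix (Fin n) (Fin n) F) :=
    Nat.card_le_card_of_injective (fun A : SpecialLinearGroup (Fin n) F => A.val)
      Subtype.val_injective
  have h3 : Nat.card (Matrix (Fin n) (Fin n) F) = Nat.card F ^ (n ^ 2) := by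
    have : Fintype F := Fintype.ofFinite F
    rw [Matrix, Nat.card_pi, Finset.prod_const, Nat.card_pi, Finset.prod_const, Finset.card_univ,
      Fintype.card_fin, ← pow_mul, sq]
  omega

end field

theorem num_psl {m n q : ℕ} (hm : 2 ≤ m) (hnm : n ≤ m) (hn : 1 ≤ n)
    (h : m ^ (8 * m ^ 2) ≤ q ^ (n ^ 2)) : m ^ 8 ≤ q := by
  by_contra hcon
  push Not at hcon
  have h1 : q ^ (n ^ 2) < (m ^ 8) ^ (n ^ 2) := Nat.pow_lt_pow_left hcon (by positivity)
  have h2 : (m ^ 8) ^ (n ^ 2) ≤ m ^ (8 * m ^ 2) := by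
    rw [← pow_mul]
    exact Nat.pow_le_pow_right (by omega) (Nat.mul_le_mul_left _ (Nat.pow_le_pow_left hnm 2))
  omega

/-- **The row `PSL_n(q)`, `n ≥ 2`, of S2453.** -/
theorem kl_psl {n : ℕ} (hn : 2 ≤ n) (F : Type*) [Field F] [Finite F] {k l : ℕ} (hk : 2 ≤ k)
    (hl : 2 ≤ l) (hg : ¬ k.Coprime l)
    (hbig : (max k l) ^ (8 * (max k l) ^ 2)
      ≤ Nat.card (ProjectiveSpecialLinearGroup (Fin n) F)) :
    KL (ProjectiveSpecialLinearGroup (Fin n) F) k l := by
  obtain ⟨r, hrc⟩ := CharP.exists F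
  have hr : Fact r.Prime := ⟨CharP.char_is_prime F r⟩
  obtain ⟨j, rfl⟩ : ∃ j, n = j + 2 := ⟨n - 2, by omega⟩
  have hq2 : 2 ≤ Nat.card F := Finite.one_lt_card
  by_cases hp : r ∣ k ∨ r ∣ l
  · obtain ⟨m, hm⟩ : ∃ m, m = max k l := ⟨_, rfl⟩
    have hm2 : 2 ≤ m := by rw [hm]; exact le_trans hk (le_max_left _ _)
    have hkm : k ≤ m := by rw [hm]; exact le_max_left _ _
    have hlm : l ≤ m := by rw [hm]; exact le_max_right _ _
    rw [← hm] at hbig
    have hb := hbig.trans (card_psl_le (j + 2))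
    by_cases hbn : 4 ≤ j + 2 ∧ m < j + 2
    · obtain ⟨s, t, hs, ht, hs1, ht1, -, -, -, h⟩ := psl_two_primes hbn.1 F
      intro g
      obtain ⟨x, y, hxy, hx, hy⟩ := h g
      have hsk : (orderOf x).Coprime k := by
        refine Nat.Coprime.of_dvd_left (orderOf_dvd_of_pow_eq_one hx) ?_
        rw [hs.coprime_iff_not_dvd]
        intro h1
        have := Nat.le_of_dvd (by omega) h1
        omega
      have htl : (orderOf y).Coprime l := by
        refine Nat.Coprime.of_dvd_left (orderOf_dvd_of_pow_eq_one hy) ?_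
        rw [ht.coprime_iff_not_dvd]
        intro h1
        have := Nat.le_of_dvd (by omega) h1
        omega
      obtain ⟨u, -, hu⟩ := exists_pow_of_coprime hsk
      obtain ⟨v, -, hv⟩ := exists_pow_of_coprime htl
      exact ⟨u, v, by rw [hxy, ← hu, ← hv]⟩
    · have he := ee_le (p := r) (k := k) (l := l) (by omega) hg
      rw [← hm] at he
      have he0 : 0 < ee r k l := by
        have h1 := (ordCompl_dvd_ee r k l)
        unfold ee
        exact Nat.ordCompl_pos r (Nat.lcm_ne_zero (by omega) (by omega))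
      have hm8 : m ^ 2 + 2 ≤ m ^ 8 := by
        have h1 : 4 ≤ m ^ 2 := by nlinarith
        have h2 : m ^ 8 = m ^ 2 * (m ^ 2 * (m ^ 2 * m ^ 2)) := by ring
        have h3 : 16 ≤ m ^ 2 * m ^ 2 := by nlinarith
        have h4 : 64 ≤ m ^ 2 * (m ^ 2 * m ^ 2) := by nlinarith
        nlinarith
      have hq : m ^ 2 ≤ Nat.card F ∧ (j = 0 → m ^ 2 + 2 ≤ Nat.card F) := by
        by_cases hjm : j + 2 ≤ m
        · have h1 := num_psl hm2 hjm (by omega) hb
          exact ⟨by omega, fun _ => by omega⟩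
        · have hj : j = 1 := by omega
          have hm' : m = 2 := by omega
          subst hj
          subst hm'
          refine ⟨?_, fun h => absurd h one_ne_zero⟩
          by_contra hcon
          push Not at hcon
          have h1 : Nat.card F ^ ((1 + 2) ^ 2) ≤ 3 ^ ((1 + 2) ^ 2) :=
            Nat.pow_le_pow_left (by omega) _
          have h2 := hb.trans h1
          norm_num at h2
      exact (ss_psl_big (r := r) he0 (by omega) (fun h => by have := hq.2 h; omega)).kl'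
  · push Not at hp
    refine PP.kl hr.out ?_ hp.1 hp.2
    intro g
    have h1 : j + 3 ≤ r ^ (j + 3) := (Nat.lt_pow_self hr.out.one_lt).le
    obtain ⟨x, y, hxy, hx, hy⟩ := psl_mul (adm_unip (F := F) (r := r) (j := j + 3) h1)
      (adm_unip (F := F) (r := r) (d := j + 1) (j := j + 3) (by omega)) g
    exact ⟨x, y, hxy, ⟨_, hx⟩, _, hy⟩

end Cfsg.Agent.H962.PP
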